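import Mathlib

set_option autoImplicit false

namespace Cfsg.Agent.H16.PG

open Matrix

variable {F : Type*} [Field F]

/-- The graph-theoretic wrapper: every two distinct vertices are adjacent or have a common
neighbour, and some two distinct vertices are not adjacent. -/
theorem graph_diam_two {V : Type*} [Nonempty V] (G : SimpleGraph V)
    (h : ∀ x y, x ≠ y → G.Adj x y ∨ ∃ z, G.Adj x z ∧ G.Adj z y)
    (hne : ∃ x y, x ≠ y ∧ ¬ G.Adj x y) : G.Connected ∧ G.diam = 2 := by
  have hreach : ∀ x y, ∃ w : G.Walk x y, w.length ≤ 2 := by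
    intro x y
    by_cases hxy : x = y
    · subst hxy; exact ⟨SimpleGraph.Walk.nil, by simp⟩
    · rcases h x y hxy with hadj | ⟨z, h1, h2⟩
      · exact ⟨SimpleGraph.Walk.cons hadj SimpleGraph.Walk.nil, by simp⟩
      · exact ⟨SimpleGraph.Walk.cons h1 (SimpleGraph.Walk.cons h2 SimpleGraph.Walk.nil), by simp⟩
  have hconn : G.Connected := by
    refine (SimpleGraph.connected_iff G).mpr ⟨fun x y => ?_, inferInstance⟩
    obtain ⟨w, -⟩ := hreach x y
    exact ⟨w⟩
  refine ⟨hconn, ?_⟩
  have hle : G.ediam ≤ 2 := by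
    refine SimpleGraph.ediam_le_of_edist_le fun u v => ?_
    obtain ⟨w, hw⟩ := hreach u v
    refine (SimpleGraph.Walk.edist_le w).trans ?_
    exact_mod_cast hw
  have hge : 2 ≤ G.ediam := by
    obtain ⟨x, y, hxy, hnadj⟩ := hne
    refine le_trans ?_ (SimpleGraph.edist_le_ediam (u := x) (v := y))
    by_contra hlt
    have h1 : G.edist x y ≤ 1 := by
      have hlt' : G.edist x y < 2 := not_le.mp hlt
      exact ENat.lt_add_one_iff (by simp) |>.mp (by simpa [one_add_one_eq_two] using hlt')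
    rcases SimpleGraph.edist_le_one_iff_adj_or_eq.mp h1 with h2 | h2
    · exact hnadj h2
    · exact hxy h2
  have hdiam : G.ediam = 2 := le_antisymm hle hge
  unfold SimpleGraph.diam
  rw [hdiam]
  rfl

abbrev SL2 (F : Type*) [Field F] := Matrix.SpecialLinearGroup (Fin 2) F
abbrev PSL2 (F : Type*) [Field F] := Matrix.ProjectiveSpecialLinearGroup (Fin 2) F

/-- The quotient map. -/
abbrev pm (F : Type*) [Field F] : SL2 F →* PSL2 F := QuotientGroup.mk' _

theorem pm_surj (x : PSL2 F) : ∃ A : SL2 F, pm F A = x :=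
  QuotientGroup.mk'_surjective _ x

theorem mem_center_two {A : SL2 F} :
    A ∈ Subgroup.center (SL2 F) ↔ ∃ r : F, r ^ 2 = 1 ∧ A.1 = Matrix.scalar (Fin 2) r := by
  rw [Matrix.SpecialLinearGroup.mem_center_iff]
  simp only [Fintype.card_fin]
  constructor
  · rintro ⟨r, h, h2⟩; exact ⟨r, h, h2.symm⟩
  · rintro ⟨r, h, h2⟩; exact ⟨r, h, h2.symm⟩

theorem pm_eq_one_iff {A : SL2 F} :
    pm F A = 1 ↔ ∃ r : F, r ^ 2 = 1 ∧ A.1 = Matrix.scalar (Fin 2) r := by
  rw [← mem_center_two]
  exact QuotientGroup.eq_one_iff A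

theorem pm_eq_iff {A B : SL2 F} :
    pm F A = pm F B ↔ ∃ r : F, r ^ 2 = 1 ∧ B.1 = r • A.1 := by
  constructor
  · intro h
    have h1 : pm F (A⁻¹ * B) = 1 := by
      rw [map_mul, map_inv, ← h]; simp
    obtain ⟨r, hr, hs⟩ := pm_eq_one_iff.mp h1
    refine ⟨r, hr, ?_⟩
    have h2 : B = A * (A⁻¹ * B) := by group
    have h3 : B.1 = A.1 * (A⁻¹ * B).1 := by
      conv_lhs => rw [h2]
      rfl
    rw [h3, hs]
    ext i j
    simp [Matrix.mul_apply, Matrix.scalar_apply, Matrix.diagonal_apply, mul_comm]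
  · rintro ⟨r, hr, hs⟩
    have h1 : pm F (A⁻¹ * B) = 1 := by
      refine pm_eq_one_iff.mpr ⟨r, hr, ?_⟩
      have : (A⁻¹ * B).1 = A⁻¹.1 * B.1 := rfl
      rw [this, hs, Matrix.mul_smul]
      have h4 : A⁻¹.1 * A.1 = 1 := by
        have : (A⁻¹ * A).1 = A⁻¹.1 * A.1 := rfl
        rw [← this]; simp
      rw [h4]
      ext i j
      fin_cases i <;> fin_cases j <;> simp [Matrix.scalar_apply]
    rw [map_mul, map_inv] at h1
    exact (inv_mul_eq_one.mp h1)

/-- entries of a product -/
theorem mul_entries (A B : SL2 F) (i j : Fin 2) :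
    (A * B).1 i j = A.1 i 0 * B.1 0 j + A.1 i 1 * B.1 1 j := by
  have : (A * B).1 = A.1 * B.1 := rfl
  rw [this, Matrix.mul_apply, Fin.sum_univ_two]

theorem det_entries (A : SL2 F) : A.1 0 0 * A.1 1 1 - A.1 0 1 * A.1 1 0 = 1 := by
  have := A.2
  rwa [Matrix.det_fin_two] at this

/-- build an element of `SL₂` from entries -/
def ofEnt (a b c d : F) (h : a * d - b * c = 1) : SL2 F :=
  ⟨!![a, b; c, d], by simpa [Matrix.det_fin_two_of] using h⟩

@[simp] theorem ofEnt_00 (a b c d : F) (h : a * d - b * c = 1) : (ofEnt a b c d h).1 0 0 = a := rfl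
@[simp] theorem ofEnt_01 (a b c d : F) (h : a * d - b * c = 1) : (ofEnt a b c d h).1 0 1 = b := rfl
@[simp] theorem ofEnt_10 (a b c d : F) (h : a * d - b * c = 1) : (ofEnt a b c d h).1 1 0 = c := rfl
@[simp] theorem ofEnt_11 (a b c d : F) (h : a * d - b * c = 1) : (ofEnt a b c d h).1 1 1 = d := rfl

theorem sl_ext {A B : SL2 F} (h00 : A.1 0 0 = B.1 0 0) (h01 : A.1 0 1 = B.1 0 1)
    (h10 : A.1 1 0 = B.1 1 0) (h11 : A.1 1 1 = B.1 1 1) : A = B := by
  apply Subtype.ext
  ext i j
  fin_cases i <;> fin_cases j <;> assumption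

/-- An element of `PSL₂` of order two lifts to trace-zero matrices. -/
theorem trace_zero_of_order_two {W : SL2 F} (h : orderOf (pm F W) = 2) :
    W.1 0 0 + W.1 1 1 = 0 := by
  by_contra htr
  have hsq : pm F (W * W) = 1 := by
    have h2 : pm F W ^ orderOf (pm F W) = 1 := pow_orderOf_eq_one _
    rw [h] at h2
    rw [map_mul, ← pow_two]; exact h2
  obtain ⟨r, hr, hs⟩ := pm_eq_one_iff.mp hsq
  have h00 : (W * W).1 0 0 = r := by rw [hs]; simp [Matrix.scalar_apply]
  have h01 : (W * W).1 0 1 = 0 := by rw [hs]; simp [Matrix.scalar_apply]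
  have h10 : (W * W).1 1 0 = 0 := by rw [hs]; simp [Matrix.scalar_apply]
  have h11 : (W * W).1 1 1 = r := by rw [hs]; simp [Matrix.scalar_apply]
  rw [mul_entries] at h00 h01 h10 h11
  have hb : W.1 0 1 = 0 := by
    have : W.1 0 1 * (W.1 0 0 + W.1 1 1) = 0 := by linear_combination h01
    exact (mul_eq_zero.mp this).resolve_right htr
  have hc : W.1 1 0 = 0 := by
    have : W.1 1 0 * (W.1 0 0 + W.1 1 1) = 0 := by linear_combination h10
    exact (mul_eq_zero.mp this).resolve_right htr
  have hd : W.1 1 1 = W.1 0 0 := by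
    have : (W.1 1 1 - W.1 0 0) * (W.1 0 0 + W.1 1 1) = 0 := by
      rw [hb] at h00 h11; linear_combination h11 - h00
    have := (mul_eq_zero.mp this).resolve_right htr
    exact sub_eq_zero.mp this
  have hdet := det_entries W
  rw [hb, hd] at hdet
  have hne : pm F W = 1 := by
    refine pm_eq_one_iff.mpr ⟨W.1 0 0, by linear_combination hdet, ?_⟩
    ext i j
    fin_cases i <;> fin_cases j <;> simp [Matrix.scalar_apply, hb, hc, hd]
  rw [hne, orderOf_one] at h
  omega

/-- A trace zero element which is non-scalar has order two in `PSL₂`. -/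
theorem order_two_of_trace_zero {W : SL2 F} (htr : W.1 0 0 + W.1 1 1 = 0)
    (hne : pm F W ≠ 1) : orderOf (pm F W) = 2 := by
  have hdet := det_entries W
  have hsq : pm F W ^ 2 = 1 := by
    rw [← map_pow]
    refine pm_eq_one_iff.mpr ⟨-1, by ring, ?_⟩
    have hW : W ^ 2 = W * W := pow_two W
    rw [hW]
    have hd : W.1 1 1 = - W.1 0 0 := by linear_combination htr
    ext i j
    rw [mul_entries]
    fin_cases i <;> fin_cases j <;> simp [Matrix.scalar_apply]
    · rw [hd] at hdet; linear_combination -hdet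
    · rw [hd]; ring
    · rw [hd]; ring
    · rw [hd] at hdet ⊢; linear_combination -hdet
  exact orderOf_eq_prime hsq hne

/-- The odd-order criterion: a power of `M` of order two commutes with `M`. -/
theorem odd_of_no_commuting [Finite F] (M : SL2 F)
    (h : ∀ W : SL2 F, Commute W M → orderOf (pm F W) = 2 → pm F M = 1) :
    Odd (orderOf (pm F M)) := by
  by_contra hodd
  rw [Nat.not_odd_iff_even] at hodd
  obtain ⟨k, hk⟩ := hodd
  by_cases h0 : orderOf (pm F M) = 0
  · exfalso
    exact (orderOf_pos (pm F M)).ne' h0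
  · have hkpos : 0 < k := by omega
    have hord : orderOf ((pm F M) ^ k) = 2 := by
      rw [orderOf_pow' _ (by omega), hk]
      have : Nat.gcd (k + k) k = k := by simp
      rw [this]
      have : (k + k) / k = 2 := by
        rw [← two_mul]; exact Nat.mul_div_cancel _ hkpos
      exact this
    have h1 := h (M ^ k) (Commute.pow_left (Commute.refl M) k) (by rwa [map_pow])
    rw [h1, orderOf_one] at hk
    omega

end Cfsg.Agent.H16.PG
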