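import Cfsg.Agent.Lib.H16.PG.OddMain

set_option autoImplicit false

namespace Cfsg.Agent.H16.PG

open Matrix

variable {F : Type*} [Field F]

/-- in characteristic two, elements of nonzero trace have odd order in `PSL₂` -/
theorem odd_order_even [Finite F] (h2 : (2 : F) = 0) (M : SL2 F)
    (hM : M.1 0 0 + M.1 1 1 ≠ 0) : Odd (orderOf (pm F M)) := by
  refine odd_of_no_commuting M fun W hc ho => ?_
  exfalso
  have hW := trace_zero_of_order_two ho
  set a := W.1 0 0 with ha
  set b := W.1 0 1 with hb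
  set c := W.1 1 0 with hc'
  have hd : W.1 1 1 = -a := by linear_combination hW
  set m1 := M.1 0 0 with hm1
  set m2 := M.1 0 1 with hm2
  set m3 := M.1 1 0 with hm3
  set m4 := M.1 1 1 with hm4
  have hcomm : W * M = M * W := hc
  have e01 := congrArg (fun X : SL2 F => X.1 0 1) hcomm
  have e10 := congrArg (fun X : SL2 F => X.1 1 0) hcomm
  simp only [mul_entries, hd, ← ha, ← hb, ← hc', ← hm1, ← hm2, ← hm3, ← hm4] at e01 e10
  have hb0 : b = 0 := by
    have : b * (m1 + m4) = 0 := by linear_combination e01 + (b * m1 - a * m2) * h2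
    exact (mul_eq_zero.mp this).resolve_right hM
  have hc0 : c = 0 := by
    have : c * (m1 + m4) = 0 := by linear_combination e10 + (c * m4 + a * m3) * h2
    exact (mul_eq_zero.mp this).resolve_right hM
  have hdW := det_entries W
  rw [hd, ← ha, ← hb, hb0] at hdW
  have hone : pm F W = 1 := by
    refine pm_eq_one_iff.mpr ⟨a, ?_, ?_⟩
    · linear_combination -hdW - h2
    · ext i j
      fin_cases i <;> fin_cases j <;> simp [Matrix.scalar_apply]
      · rfl
      · exact hb0
      · exact hc0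
      · have : W.1 1 1 = a := by rw [hd]; linear_combination (-a) * h2
        exact this
  rw [hone, orderOf_one] at ho
  omega

theorem sq_inj_char_two (h2 : (2 : F) = 0) {x y : F} (h : x ^ 2 = y ^ 2) : x = y := by
  have : (x - y) ^ 2 = 0 := by linear_combination h + (y ^ 2 - x * y) * h2
  have := pow_eq_zero_iff (two_ne_zero) |>.mp this
  exact sub_eq_zero.mp this

theorem exists_good_w [Fintype F] (h2 : (2 : F) = 0) (hcard : 4 ≤ Fintype.card F) {b c b' c' : F}
    (h1 : b ≠ 0 ∨ c ≠ 0) (h1' : b' ≠ 0 ∨ c' ≠ 0) :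
    ∃ w : F, b + c * w ^ 2 ≠ 0 ∧ b' + c' * w ^ 2 ≠ 0 := by
  classical
  have hsub : ∀ {b c : F}, (b ≠ 0 ∨ c ≠ 0) → ∀ x y : F, b + c * x ^ 2 = 0 → b + c * y ^ 2 = 0 →
      x = y := by
    intro b c hbc x y hx hy
    have hc : c ≠ 0 := by
      rintro rfl
      rcases hbc with h | h
      · exact h (by simpa using hx)
      · exact h rfl
    apply sq_inj_char_two h2
    apply mul_left_cancel₀ hc
    linear_combination hx - hy
  obtain ⟨x, hx0, hx1⟩ : ∃ x : F, x ≠ 0 ∧ x ≠ 1 := by
    by_contra hcon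
    push Not at hcon
    have hsub' : (Finset.univ : Finset F) ⊆ {0, 1} := by
      intro a _
      by_cases h0 : a = 0
      · simp [h0]
      · simp [hcon a h0]
    have := Finset.card_le_card hsub'
    have h3 : ({0, 1} : Finset F).card ≤ 2 := Finset.card_le_two
    rw [Finset.card_univ] at this
    omega
  by_contra hcon
  push Not at hcon
  have key : ∀ w : F, b + c * w ^ 2 = 0 ∨ b' + c' * w ^ 2 = 0 := by
    intro w
    by_cases h : b + c * w ^ 2 = 0
    · exact Or.inl h
    · exact Or.inr (hcon w h)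
  have h01 : (0 : F) ≠ 1 := zero_ne_one
  rcases key 0 with k0 | k0 <;> rcases key 1 with k1 | k1 <;> rcases key x with kx | kx
  · exact h01 (hsub h1 _ _ k0 k1)
  · exact h01 (hsub h1 _ _ k0 k1)
  · exact hx0 (hsub h1 _ _ kx k0)
  · exact hx1 (hsub h1' _ _ kx k1)
  · exact hx1 (hsub h1 _ _ kx k1)
  · exact hx0 (hsub h1' _ _ kx k0)
  · exact h01 (hsub h1' _ _ k0 k1)
  · exact h01 (hsub h1' _ _ k0 k1)

/-- The even characteristic common neighbour. -/
theorem common_even [Fintype F] (h2 : (2 : F) = 0) (hcard : 4 ≤ Fintype.card F) (A B : SL2 F)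
    (hA : A.1 0 0 + A.1 1 1 = 0) (hB : B.1 0 0 + B.1 1 1 = 0)
    (hA1 : pm F A ≠ 1) (hB1 : pm F B ≠ 1) :
    ∃ Z : SL2 F, Z.1 0 0 + Z.1 1 1 = 0 ∧ pm F Z ≠ 1 ∧ pm F A ≠ pm F Z ∧ pm F Z ≠ pm F B ∧
      Odd (orderOf (pm F A * pm F Z)) ∧ Odd (orderOf (pm F Z * pm F B)) := by
  have hnz : ∀ M : SL2 F, M.1 0 0 + M.1 1 1 = 0 → pm F M ≠ 1 → M.1 0 1 ≠ 0 ∨ M.1 1 0 ≠ 0 := by
    intro M htr hne
    by_contra hcon
    push Not at hcon
    apply hne
    have hd : M.1 1 1 = M.1 0 0 := by linear_combination htr - (M.1 0 0) * h2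
    have hdet := det_entries M
    rw [hd, hcon.1] at hdet
    refine pm_eq_one_iff.mpr ⟨M.1 0 0, by linear_combination hdet, ?_⟩
    ext i j
    fin_cases i <;> fin_cases j <;> simp [Matrix.scalar_apply, hcon.1, hcon.2, hd]
  obtain ⟨w, hw1, hw2⟩ := exists_good_w h2 hcard (hnz A hA hA1) (hnz B hB hB1)
  set b := A.1 0 1 with hb
  set c := A.1 1 0 with hc
  set b' := B.1 0 1 with hb'
  set c' := B.1 1 0 with hc'
  have hdetZ : (1 + w * 1) * (1 + w * 1) - w ^ 2 * 1 ^ 2 = 1 := by
    linear_combination w * h2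
  let Z : SL2 F := ofEnt (1 + w * 1) (w ^ 2) (1 ^ 2) (1 + w * 1) hdetZ
  have hA4 : A.1 1 1 = - A.1 0 0 := by linear_combination hA
  have hB4 : B.1 1 1 = - B.1 0 0 := by linear_combination hB
  have hAZ : (A * Z).1 0 0 + (A * Z).1 1 1 = b + c * w ^ 2 := by
    simp only [mul_entries, Z, ofEnt_00, ofEnt_01, ofEnt_10, ofEnt_11, hA4, ← hb, ← hc]
    ring
  have hZB : (Z * B).1 0 0 + (Z * B).1 1 1 = b' + c' * w ^ 2 := by
    simp only [mul_entries, Z, ofEnt_00, ofEnt_01, ofEnt_10, ofEnt_11, hB4, ← hb', ← hc']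
    ring
  have hAZ0 : (A * Z).1 0 0 + (A * Z).1 1 1 ≠ 0 := by rw [hAZ]; exact hw1
  have hZB0 : (Z * B).1 0 0 + (Z * B).1 1 1 ≠ 0 := by rw [hZB]; exact hw2
  refine ⟨Z, ?_, ?_, ?_, ?_, ?_, ?_⟩
  · simp only [Z, ofEnt_00, ofEnt_11]
    linear_combination (1 + w) * h2
  · intro h1
    obtain ⟨l, hl, hs⟩ := pm_eq_one_iff.mp h1
    have e10 : Z.1 1 0 = 0 := by rw [hs]; simp [Matrix.scalar_apply]
    simp only [Z, ofEnt_10] at e10
    simp at e10
  · intro heq
    obtain ⟨l, hl, hs⟩ := pm_eq_iff.mp heq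
    apply hAZ0
    have hz : ∀ i j, Z.1 i j = l * A.1 i j := fun i j => by rw [hs]; simp
    have hdA := det_entries A
    simp only [mul_entries, hz]
    rw [hA4] at hdA ⊢
    linear_combination (l * ((A.1 0 0) ^ 2 + b * c)) * h2
  · intro heq
    obtain ⟨l, hl, hs⟩ := pm_eq_iff.mp heq
    apply hZB0
    have hb2 : ∀ i j, B.1 i j = l * Z.1 i j := fun i j => by rw [hs]; simp
    have hz : ∀ i j, Z.1 i j = l * B.1 i j := fun i j => by
      rw [hb2]; linear_combination (-(Z.1 i j)) * hl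
    simp only [mul_entries, hz]
    rw [hB4]
    linear_combination (l * ((B.1 0 0) ^ 2 + b' * c')) * h2
  · rw [← map_mul]; exact odd_order_even h2 _ hAZ0
  · rw [← map_mul]; exact odd_order_even h2 _ hZB0

/-- the standard transvection -/
def E (F : Type*) [Field F] : SL2 F := ofEnt 1 1 0 1 (by ring)

theorem conj_E [Fintype F] (h2 : (2 : F) = 0) (A : SL2 F) (hA : A.1 0 0 + A.1 1 1 = 0)
    (hA1 : pm F A ≠ 1) : ∃ C : SL2 F, A * C = C * E F := by
  have hchar : ringChar F = 2 := by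
    have h3 : CharP F 2 := by
      refine CharTwo.of_one_ne_zero_of_two_eq_zero one_ne_zero h2
    exact ringChar.eq F 2
  set a := A.1 0 0 with ha
  set b := A.1 0 1 with hb
  set c := A.1 1 0 with hc
  have hd : A.1 1 1 = -a := by linear_combination hA
  have hdet := det_entries A
  rw [hd] at hdet
  have haa : a ^ 2 + b * c = 1 := by linear_combination -hdet - h2
  by_cases hb0 : b = 0
  · have hc0 : c ≠ 0 := by
      intro hc0
      apply hA1
      have ha1 : a = 1 := by
        apply sq_inj_char_two h2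
        rw [hb0] at haa
        linear_combination haa
      refine pm_eq_one_iff.mpr ⟨1, by ring, ?_⟩
      ext i j
      fin_cases i <;> fin_cases j <;> simp [Matrix.scalar_apply]
      · exact ha1
      · exact hb0
      · exact hc0
      · rw [hd, ha1]; linear_combination -h2
    obtain ⟨w, hw⟩ := FiniteField.isSquare_of_char_two hchar (c⁻¹)
    have hw2 : c * w ^ 2 = 1 := by
      rw [pow_two, ← hw]; field_simp
    have ha1 : a = 1 := by
      apply sq_inj_char_two h2
      rw [hb0] at haa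
      linear_combination haa
    refine ⟨ofEnt 0 w (c * w) 0 (by linear_combination -hw2 - h2), ?_⟩
    apply sl_ext
    all_goals simp only [mul_entries, ofEnt_00, ofEnt_01, ofEnt_10, ofEnt_11, E, hd, ← ha, ← hb, ← hc, hb0, ha1]
    · ring
    · ring
    · linear_combination (-c * w) * h2
    · ring
  · obtain ⟨w, hw⟩ := FiniteField.isSquare_of_char_two hchar (b⁻¹)
    have hw2 : b * w ^ 2 = 1 := by
      rw [pow_two, ← hw]; field_simp
    refine ⟨ofEnt (b * w) 0 ((a + 1) * w) w (by linear_combination hw2), ?_⟩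
    apply sl_ext
    all_goals simp only [mul_entries, ofEnt_00, ofEnt_01, ofEnt_10, ofEnt_11, E, hd, ← ha, ← hb, ← hc]
    · linear_combination (a * b * w) * h2
    · ring
    · linear_combination w * haa - (w * (a ^ 2 + a)) * h2
    · linear_combination (-a * w - w) * h2

theorem isConj_even [Fintype F] (h2 : (2 : F) = 0) (A B : SL2 F)
    (hA : A.1 0 0 + A.1 1 1 = 0) (hB : B.1 0 0 + B.1 1 1 = 0)
    (hA1 : pm F A ≠ 1) (hB1 : pm F B ≠ 1) : IsConj (pm F A) (pm F B) := by
  obtain ⟨C, hC⟩ := conj_E h2 A hA hA1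
  obtain ⟨D, hD⟩ := conj_E h2 B hB hB1
  exact (pm_conj_of_intertwine hC).symm.trans (pm_conj_of_intertwine hD)

/-- a non-adjacent pair in characteristic two -/
theorem nonadj_even [Fintype F] (h2 : (2 : F) = 0) (hcard : 4 ≤ Fintype.card F) :
    ∃ A B : SL2 F, A.1 0 0 + A.1 1 1 = 0 ∧ B.1 0 0 + B.1 1 1 = 0 ∧ pm F A ≠ 1 ∧ pm F B ≠ 1 ∧
      pm F A ≠ pm F B ∧ orderOf (pm F A * pm F B) = 2 ∧ orderOf (pm F B * pm F A) = 2 := by
  classical
  obtain ⟨x, hx0, hx1⟩ : ∃ x : F, x ≠ 0 ∧ x ≠ 1 := by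
    by_contra hcon
    push Not at hcon
    have hsub' : (Finset.univ : Finset F) ⊆ {0, 1} := by
      intro a _
      by_cases h0 : a = 0
      · simp [h0]
      · simp [hcon a h0]
    have := Finset.card_le_card hsub'
    have h3 : ({0, 1} : Finset F).card ≤ 2 := Finset.card_le_two
    rw [Finset.card_univ] at this
    omega
  have htrans : ∀ y : F, y ≠ 0 → ∀ M : SL2 F, M.1 0 1 = y → pm F M ≠ 1 := by
    intro y hy M hM h1
    obtain ⟨l, hl, hs⟩ := pm_eq_one_iff.mp h1
    apply hy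
    rw [← hM, hs]; simp [Matrix.scalar_apply]
  let B : SL2 F := ofEnt 1 x 0 1 (by ring)
  have hsum : x + 1 ≠ 0 := by
    intro h
    apply hx1
    linear_combination h - h2
  have h12 : (E F * B).1 0 1 = x + 1 := by
    simp [mul_entries, E, B] <;> ring
  have h21 : (B * E F).1 0 1 = x + 1 := by
    simp [mul_entries, E, B] <;> ring
  have htr1 : (E F * B).1 0 0 + (E F * B).1 1 1 = 0 := by
    simp [mul_entries, E, B]; linear_combination h2
  have htr2 : (B * E F).1 0 0 + (B * E F).1 1 1 = 0 := by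
    simp [mul_entries, E, B]; linear_combination h2
  have hE1 : pm F (E F) ≠ 1 := htrans 1 one_ne_zero _ (by simp [E])
  have hB1 : pm F B ≠ 1 := htrans x hx0 _ (by simp [B])
  refine ⟨E F, B, ?_, ?_, hE1, hB1, ?_, ?_, ?_⟩
  · simp [E]; linear_combination h2
  · simp [B]; linear_combination h2
  · intro heq
    obtain ⟨l, hl, hs⟩ := pm_eq_iff.mp heq
    have e00 : B.1 0 0 = l * (E F).1 0 0 := by rw [hs]; simp
    have e01 : B.1 0 1 = l * (E F).1 0 1 := by rw [hs]; simp
    simp [E, B] at e00 e01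
    apply hx1
    rw [e01, ← e00]
  · rw [← map_mul]; exact order_two_of_trace_zero htr1 (htrans _ hsum _ h12)
  · rw [← map_mul]; exact order_two_of_trace_zero htr2 (htrans _ hsum _ h21)

end Cfsg.Agent.H16.PG
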