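import Cfsg.Agent.Lib.H16.PG.Basic

set_option autoImplicit false

namespace Cfsg.Agent.H16.PG

open Matrix

variable {F : Type*} [Field F]

/-- commuting with a trace-zero element forces `M` scalar, when the discriminant is `4 w²` and
`w = 0` or `-1` is not a square. -/
theorem scalar_of_commute_odd (h2 : (2 : F) ≠ 0) {M W : SL2 F} (hc : Commute W M)
    (hW : W.1 0 0 + W.1 1 1 = 0) {w : F}
    (hdisc : (M.1 0 0 + M.1 1 1) ^ 2 - 4 = 4 * w ^ 2) (hw : w = 0 ∨ ¬ IsSquare (-1 : F)) :
    pm F M = 1 := by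
  have hdW := det_entries W
  have hdM := det_entries M
  set a := W.1 0 0 with ha
  set b := W.1 0 1 with hb
  set c := W.1 1 0 with hc'
  have hd : W.1 1 1 = -a := by linear_combination hW
  rw [hd] at hdW
  set m1 := M.1 0 0 with hm1
  set m2 := M.1 0 1 with hm2
  set m3 := M.1 1 0 with hm3
  set m4 := M.1 1 1 with hm4
  have hcomm : W * M = M * W := hc
  have e00 := congrArg (fun X : SL2 F => X.1 0 0) hcomm
  have e01 := congrArg (fun X : SL2 F => X.1 0 1) hcomm
  have e10 := congrArg (fun X : SL2 F => X.1 1 0) hcomm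
  have e11 := congrArg (fun X : SL2 F => X.1 1 1) hcomm
  simp only [mul_entries, hd, ← ha, ← hb, ← hc', ← hm1, ← hm2, ← hm3, ← hm4] at e00 e01 e10 e11
  -- relations
  have r1 : b * m3 = c * m2 := by linear_combination e00
  have r2 : (m1 - m4) * b = 2 * m2 * a := by linear_combination -e01
  have r3 : 2 * m3 * a = (m1 - m4) * c := by linear_combination -e10
  set D := m1 - m4 with hD
  have hdisc' : D ^ 2 + 4 * m2 * m3 = 4 * w ^ 2 := by
    rw [hD]; linear_combination hdisc - 4 * hdM
  set κ := D * a + 2 * m2 * c with hκ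
  have hk : κ ^ 2 = - (4 * w ^ 2) := by
    have haa : a ^ 2 + b * c = -1 := by linear_combination -hdW
    have : κ ^ 2 = (D ^ 2 + 4 * m2 * m3) * (a ^ 2 + b * c) := by
      rw [hκ]
      linear_combination (-(D * c)) * r2 + (-(2 * m2 * a)) * r3 + (-4 * m2 * c) * r1
    rw [this, hdisc', haa]; ring
  have hwk : w = 0 ∧ κ = 0 := by
    rcases hw with hw | hw
    · refine ⟨hw, ?_⟩
      rw [hw] at hk
      have : κ ^ 2 = 0 := by rw [hk]; ring
      exact pow_eq_zero_iff (two_ne_zero) |>.mp this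
    · by_cases hw0 : w = 0
      · refine ⟨hw0, ?_⟩
        rw [hw0] at hk
        have : κ ^ 2 = 0 := by rw [hk]; ring
        exact pow_eq_zero_iff (two_ne_zero) |>.mp this
      · exfalso
        apply hw
        refine ⟨κ / (2 * w), ?_⟩
        have h2w : 2 * w ≠ 0 := mul_ne_zero h2 hw0
        field_simp
        linear_combination -hk
  obtain ⟨hw0, hk0⟩ := hwk
  have haa : a ^ 2 + b * c = -1 := by linear_combination -hdW
  -- E = 0
  have hDz : D = 0 := by
    have e1 : D * a + 2 * m2 * c = 0 := hk0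
    have : D * (a ^ 2 + b * c) = 0 := by
      linear_combination a * e1 + c * r2
    rw [haa] at this
    simpa using this
  have hm2z : m2 = 0 := by
    have e1 : D * a + 2 * m2 * c = 0 := hk0
    have : 2 * m2 * (a ^ 2 + b * c) = 0 := by
      linear_combination b * e1 - a * r2
    rw [haa] at this
    have h3 : 2 * m2 = 0 := by simpa using this
    exact (mul_eq_zero.mp h3).resolve_left h2
  have hm3z : m3 = 0 := by
    have e1 : D * a + 2 * m2 * c = 0 := hk0
    have h4 : b * m3 = 0 := by rw [r1, hm2z]; ring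
    have h5 : 2 * m3 * a = 0 := by rw [r3, hDz]; ring
    have : 2 * m3 * (a ^ 2 + b * c) = 0 := by
      linear_combination a * h5 + 2 * c * h4
    rw [haa] at this
    have h3 : 2 * m3 = 0 := by simpa using this
    exact (mul_eq_zero.mp h3).resolve_left h2
  have h14 : m4 = m1 := by
    have : m1 - m4 = 0 := hDz
    exact (sub_eq_zero.mp this).symm
  refine pm_eq_one_iff.mpr ⟨m1, ?_, ?_⟩
  · rw [h14, hm2z] at hdM
    linear_combination hdM
  · ext i j
    fin_cases i <;> fin_cases j <;> simp [Matrix.scalar_apply]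
    · rfl
    · exact hm2z
    · exact hm3z
    · exact h14

/-- the odd characteristic odd-order criterion -/
theorem odd_order_odd [Finite F] (h2 : (2 : F) ≠ 0) (M : SL2 F) {w : F}
    (hdisc : (M.1 0 0 + M.1 1 1) ^ 2 - 4 = 4 * w ^ 2) (hw : w = 0 ∨ ¬ IsSquare (-1 : F)) :
    Odd (orderOf (pm F M)) :=
  odd_of_no_commuting M fun _ hc ho =>
    scalar_of_commute_odd h2 hc (trace_zero_of_order_two ho) hdisc hw

/-- The element `Z`. -/
theorem exists_Z (h2 : (2 : F) ≠ 0) (A B : SL2 F)
    (hA : A.1 0 0 + A.1 1 1 = 0) (hB : B.1 0 0 + B.1 1 1 = 0) {c r s w : F}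
    (hc : (A * B).1 0 0 + (A * B).1 1 1 = -2 * c) (he : 1 - c ^ 2 ≠ 0)
    (hw : w ^ 2 = 1 - c ^ 2 - r ^ 2 - s ^ 2 + 2 * r * s * c) :
    ∃ Z : SL2 F, Z.1 0 0 + Z.1 1 1 = 0 ∧
      (A * Z).1 0 0 + (A * Z).1 1 1 = -2 * r ∧
      (Z * B).1 0 0 + (Z * B).1 1 1 = -2 * s := by
  set a1 := A.1 0 0 with ha1
  set a2 := A.1 0 1 with ha2
  set a3 := A.1 1 0 with ha3
  set b1 := B.1 0 0 with hb1
  set b2 := B.1 0 1 with hb2
  set b3 := B.1 1 0 with hb3
  have hA4 : A.1 1 1 = -a1 := by linear_combination hA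
  have hB4 : B.1 1 1 = -b1 := by linear_combination hB
  have hdA := det_entries A
  have hdB := det_entries B
  rw [hA4] at hdA
  rw [hB4] at hdB
  have h1 : a1 ^ 2 + a2 * a3 = -1 := by linear_combination -hdA
  have h1' : b1 ^ 2 + b2 * b3 = -1 := by linear_combination -hdB
  have hcc : 2 * a1 * b1 + a2 * b3 + a3 * b2 = -2 * c := by
    rw [mul_entries, mul_entries, hA4, hB4] at hc
    linear_combination hc
  set e := 1 - c ^ 2 with hedef
  set α := (r - s * c) / e with hα
  set β := (s - r * c) / e with hβ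
  set γ := w / (2 * e) with hγ
  have hαe : α * e = r - s * c := by rw [hα]; field_simp
  have hβe : β * e = s - r * c := by rw [hβ]; field_simp
  have hγe : γ * (2 * e) = w := by
    rw [hγ]; have : 2 * e ≠ 0 := mul_ne_zero h2 he
    field_simp
  set z1 := α * a1 + β * b1 + γ * (a2 * b3 - a3 * b2) with hz1
  set z2 := α * a2 + β * b2 + 2 * γ * (a1 * b2 - a2 * b1) with hz2
  set z3 := α * a3 + β * b3 + 2 * γ * (a3 * b1 - a1 * b3) with hz3
  have hq : -z1 ^ 2 - z2 * z3 = α ^ 2 + β ^ 2 + 2 * α * β * c + 4 * γ ^ 2 * e := by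
    rw [hz1, hz2, hz3, hedef]
    grind
  have hone : α ^ 2 + β ^ 2 + 2 * α * β * c + 4 * γ ^ 2 * e = 1 := by
    have key : (α ^ 2 + β ^ 2 + 2 * α * β * c + 4 * γ ^ 2 * e) * e ^ 2 = e ^ 2 := by
      have h3 : 4 * γ ^ 2 * e ^ 3 = w ^ 2 * e := by
        rw [← hγe]; ring
      have h4 : (α * e) ^ 2 + (β * e) ^ 2 + 2 * (α * e) * (β * e) * c
          = (r ^ 2 + s ^ 2 - 2 * r * s * c) * e := by
        rw [hαe, hβe, hedef]; ring
      have h5 : (α ^ 2 + β ^ 2 + 2 * α * β * c + 4 * γ ^ 2 * e) * e ^ 2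
          = ((α * e) ^ 2 + (β * e) ^ 2 + 2 * (α * e) * (β * e) * c) + 4 * γ ^ 2 * e ^ 3 := by ring
      rw [h5, h4, h3, hw, hedef]; ring
    have he2 : e ^ 2 ≠ 0 := pow_ne_zero 2 he
    exact mul_right_cancel₀ he2 (by rw [key, one_mul])
  have hdet : z1 * (-z1) - z2 * z3 = 1 := by
    have : z1 * (-z1) - z2 * z3 = -z1 ^ 2 - z2 * z3 := by ring
    rw [this, hq, hone]
  refine ⟨ofEnt z1 z2 z3 (-z1) hdet, by simp, ?_, ?_⟩
  · simp only [mul_entries, ofEnt_00, ofEnt_01, ofEnt_10, ofEnt_11, hA4, ← ha1, ← ha2, ← ha3]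
    have : a1 * z1 + a2 * z3 + (a3 * z2 + -a1 * -z1) = α * (2 * (a1 ^ 2 + a2 * a3)) +
        β * (2 * a1 * b1 + a2 * b3 + a3 * b2) := by
      rw [hz1, hz2, hz3]; ring
    rw [this, h1, hcc]
    have h6 : (α + β * c) * e = r * e := by
      have : (α + β * c) * e = α * e + β * e * c := by ring
      rw [this, hαe, hβe, hedef]; ring
    have h7 : α + β * c = r := mul_right_cancel₀ he h6
    linear_combination -2 * h7
  · simp only [mul_entries, ofEnt_00, ofEnt_01, ofEnt_10, ofEnt_11, hB4, ← hb1, ← hb2, ← hb3]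
    have : z1 * b1 + z2 * b3 + (z3 * b2 + -z1 * -b1) = α * (2 * a1 * b1 + a2 * b3 + a3 * b2) +
        β * (2 * (b1 ^ 2 + b2 * b3)) := by
      rw [hz1, hz2, hz3]; ring
    rw [this, h1', hcc]
    have h6 : (α * c + β) * e = s * e := by
      have : (α * c + β) * e = α * e * c + β * e := by ring
      rw [this, hαe, hβe, hedef]; ring
    have h7 : α * c + β = s := mul_right_cancel₀ he h6
    linear_combination -2 * h7

/-- a witness for the choice of traces when `-1` is not a square -/
theorem exists_rsw [Fintype F] (h2 : (2 : F) ≠ 0) (hneg : ¬ IsSquare (-1 : F))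
    (hcard : 4 ≤ Fintype.card F) {c e : F} (he : e ^ 2 = 1 - c ^ 2) (he0 : e ≠ 0) :
    ∃ r ε w v : F, ε ^ 2 = 1 ∧ v ^ 2 = r ^ 2 - 1 ∧
      w ^ 2 = 1 - c ^ 2 - r ^ 2 - (ε * r) ^ 2 + 2 * r * (ε * r) * c := by
  classical
  have h1c : 1 - c ≠ 0 := by
    intro h
    have hc1 : c = 1 := by linear_combination -h
    rw [hc1] at he
    apply he0
    have : e ^ 2 = 0 := by rw [he]; ring
    exact pow_eq_zero_iff two_ne_zero |>.mp this
  set n₀ := -2 * (1 - c) with hn₀
  have hn₀0 : n₀ ≠ 0 := by
    rw [hn₀]; exact mul_ne_zero (neg_ne_zero.mpr h2) h1c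
  -- step 1 : find t
  have hstep : ∃ t g : F, t ≠ 0 ∧ n₀ * (t ^ 2 - 2 * c * t + 1) = g ^ 2 := by
    by_cases hsq : IsSquare n₀
    · obtain ⟨h, hh⟩ := hsq
      by_cases hc0 : c = 0
      · obtain ⟨a, ha0, ha1, ham⟩ : ∃ a : F, a ≠ 0 ∧ a ≠ 1 ∧ a ≠ -1 := by
          by_contra hcon
          push Not at hcon
          have hsub : (Finset.univ : Finset F) ⊆ {0, 1, -1} := by
            intro a _
            by_cases h0 : a = 0
            · simp [h0]
            by_cases h1 : a = 1
            · simp [h1]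
            · simp [hcon a h0 h1]
          have := Finset.card_le_card hsub
          have h3 : ({0, 1, -1} : Finset F).card ≤ 3 := Finset.card_le_three
          rw [Finset.card_univ] at this
          omega
        have ha2 : a ^ 2 ≠ 1 := by
          intro h
          have : (a - 1) * (a + 1) = 0 := by linear_combination h
          rcases mul_eq_zero.mp this with h' | h'
          · exact ha1 (sub_eq_zero.mp h')
          · exact ham (eq_neg_of_add_eq_zero_left h')
        refine ⟨(a⁻¹ - a) / 2, h * ((a⁻¹ + a) / 2), ?_, ?_⟩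
        · intro h0
          have h3 : a⁻¹ - a = 0 := by
            have := (div_eq_zero_iff.mp h0).resolve_right h2
            exact this
          apply ha2
          have : a⁻¹ * a = 1 := inv_mul_cancel₀ ha0
          have h4 : a⁻¹ = a := sub_eq_zero.mp h3
          rw [h4] at this
          rw [pow_two]; exact this
        · rw [hc0, hh]
          field_simp
          ring
      · refine ⟨c, h * e, hc0, ?_⟩
        rw [hh]
        have : c ^ 2 - 2 * c * c + 1 = e ^ 2 := by rw [he]; ring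
        rw [this]; ring
    · have hchar : ringChar F ≠ 2 := fun h => h2 (by
        have := ringChar.Nat.cast_ringChar (R := F)
        rw [h] at this
        exact_mod_cast this)
      have hodd : Fintype.card F % 2 = 1 := FiniteField.odd_card_of_char_ne_two hchar
      obtain ⟨y, w, hyw⟩ : ∃ y w : F, y ^ 2 + e ^ 2 = n₀ * w ^ 2 := by
        have hf : (Polynomial.X ^ 2 + Polynomial.C (e ^ 2) : Polynomial F).degree = 2 := by
          compute_degree!
        have hg : (Polynomial.C (-n₀) * Polynomial.X ^ 2 : Polynomial F).degree = 2 := by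
          rw [Polynomial.degree_C_mul_X_pow 2 (neg_ne_zero.mpr hn₀0)]
          rfl
        obtain ⟨y, w, hyw⟩ := FiniteField.exists_root_sum_quadratic hf hg hodd
        refine ⟨y, w, ?_⟩
        simp only [Polynomial.eval_add, Polynomial.eval_pow, Polynomial.eval_X, Polynomial.eval_C,
          Polynomial.eval_mul] at hyw
        linear_combination hyw
      have hw0 : w ≠ 0 := by
        intro h
        apply hneg
        rw [h] at hyw
        refine ⟨y / e, ?_⟩
        field_simp
        linear_combination -hyw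
      refine ⟨y + c, n₀ * w, ?_, ?_⟩
      · intro h0
        apply hsq
        have hy : y = -c := by linear_combination h0
        rw [hy, he] at hyw
        have : n₀ * w ^ 2 = 1 := by linear_combination -hyw
        refine ⟨w⁻¹, ?_⟩
        field_simp
        linear_combination this
      · have : (y + c) ^ 2 - 2 * c * (y + c) + 1 = y ^ 2 + e ^ 2 := by rw [he]; ring
        rw [this, hyw]; ring
  obtain ⟨t, g, ht0, hg⟩ := hstep
  -- step 2 : the sign
  obtain ⟨ε, u, hε, hu0, hu⟩ : ∃ ε u : F, (ε = 1 ∨ ε = -1) ∧ u ≠ 0 ∧ u ^ 2 = ε * t := by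
    by_cases hts : IsSquare t
    · obtain ⟨u, hu⟩ := hts
      refine ⟨1, u, Or.inl rfl, ?_, by rw [hu]; ring⟩
      rintro rfl
      apply ht0; rw [hu]; ring
    · have hnegt : IsSquare (-t) := by
        have h1 : quadraticChar F (-1) = -1 := quadraticChar_neg_one_iff_not_isSquare.mpr hneg
        have h3 : quadraticChar F t = -1 := quadraticChar_neg_one_iff_not_isSquare.mpr hts
        have h4 : quadraticChar F (-t) = 1 := by
          have : -t = (-1) * t := by ring
          rw [this, map_mul, h1, h3]; norm_num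
        have hnt : -t ≠ 0 := neg_ne_zero.mpr ht0
        exact (quadraticChar_one_iff_isSquare hnt).mp h4
      obtain ⟨u, hu⟩ := hnegt
      refine ⟨-1, u, Or.inr rfl, ?_, by linear_combination -hu⟩
      rintro rfl
      apply ht0
      linear_combination -hu
  have hε2 : ε ^ 2 = 1 := by
    rcases hε with rfl | rfl <;> ring
  have h2u : u ≠ 0 := hu0
  have h4 : (4 : F) ≠ 0 := by
    have : (4 : F) = 2 * 2 := by norm_num
    rw [this]; exact mul_ne_zero h2 h2
  rcases hε with rfl | rfl
  · refine ⟨(u + u⁻¹) / 2, 1, g / (2 * u), (u - u⁻¹) / 2, by ring, by field_simp; ring, ?_⟩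
    have ht : t = u ^ 2 := by rw [hu]; ring
    subst ht
    have h3 : (g / (2 * u)) ^ 2 = g ^ 2 / (4 * u ^ 2) := by field_simp; ring
    rw [h3, ← hg, hn₀]
    field_simp
    ring
  · refine ⟨(u + u⁻¹) / 2, -1, e * g / ((1 - c) * (2 * u)), (u - u⁻¹) / 2, by ring,
      by field_simp; ring, ?_⟩
    have ht : t = -u ^ 2 := by rw [hu]; ring
    subst ht
    have h3 : (e * g / ((1 - c) * (2 * u))) ^ 2 = e ^ 2 * g ^ 2 / ((1 - c) ^ 2 * (4 * u ^ 2)) := by
      field_simp; ring
    rw [h3, he, ← hg, hn₀]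
    field_simp
    ring

end Cfsg.Agent.H16.PG
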