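import Cfsg.Agent.Lib.H16.PG.Odd

set_option autoImplicit false

namespace Cfsg.Agent.H16.PG

open Matrix

variable {F : Type*} [Field F]

/-- from traces to the common neighbour data -/
theorem common_of_rsw [Finite F] (h2 : (2 : F) ≠ 0) (A B : SL2 F)
    (hA : A.1 0 0 + A.1 1 1 = 0) (hB : B.1 0 0 + B.1 1 1 = 0) {c r ε w v : F}
    (hc : (A * B).1 0 0 + (A * B).1 1 1 = -2 * c) (he : 1 - c ^ 2 ≠ 0)
    (hε : ε ^ 2 = 1) (hv : v ^ 2 = r ^ 2 - 1) (hvv : v = 0 ∨ ¬ IsSquare (-1 : F))
    (hw : w ^ 2 = 1 - c ^ 2 - r ^ 2 - (ε * r) ^ 2 + 2 * r * (ε * r) * c) :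
    ∃ Z : SL2 F, Z.1 0 0 + Z.1 1 1 = 0 ∧ pm F Z ≠ 1 ∧ pm F A ≠ pm F Z ∧ pm F Z ≠ pm F B ∧
      Odd (orderOf (pm F A * pm F Z)) ∧ Odd (orderOf (pm F Z * pm F B)) := by
  obtain ⟨Z, hZ, hAZ, hZB⟩ := exists_Z h2 A B hA hB hc he hw
  have hε0 : ε ≠ 0 := by rintro rfl; simp at hε
  refine ⟨Z, hZ, ?_, ?_, ?_, ?_, ?_⟩
  · intro h1
    obtain ⟨l, hl, hs⟩ := pm_eq_one_iff.mp h1
    have h00 : Z.1 0 0 = l := by rw [hs]; simp [Matrix.scalar_apply]
    have h11 : Z.1 1 1 = l := by rw [hs]; simp [Matrix.scalar_apply]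
    rw [h00, h11] at hZ
    have : 2 * l = 0 := by linear_combination hZ
    have hl0 : l = 0 := (mul_eq_zero.mp this).resolve_left h2
    rw [hl0] at hl
    simp at hl
  · intro heq
    obtain ⟨l, hl, hs⟩ := pm_eq_iff.mp heq
    have hz : ∀ i j, Z.1 i j = l * A.1 i j := fun i j => by rw [hs]; simp
    have hA4 : A.1 1 1 = - A.1 0 0 := by linear_combination hA
    have hdA := det_entries A
    rw [hA4] at hdA
    simp only [mul_entries, hz, hA4] at hAZ hZB
    simp only [mul_entries, hA4] at hc
    have hB4 : B.1 1 1 = - B.1 0 0 := by linear_combination hB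
    rw [hB4] at hZB hc
    -- r = l
    have h3 : 2 * (r - l) = 0 := by linear_combination hAZ + 2 * l * hdA
    have h4 : r = l := by
      have := (mul_eq_zero.mp h3).resolve_left h2
      exact sub_eq_zero.mp this
    -- ε r = l c
    have h5 : 2 * (ε * r - l * c) = 0 := by linear_combination hZB - l * hc
    have h6 : ε * r = l * c := by
      have := (mul_eq_zero.mp h5).resolve_left h2
      exact sub_eq_zero.mp this
    rw [h4] at h6
    have hl0 : l ≠ 0 := by rintro rfl; simp at hl
    have h7 : c = ε := by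
      have : l * (c - ε) = 0 := by linear_combination -h6
      exact sub_eq_zero.mp ((mul_eq_zero.mp this).resolve_left hl0)
    apply he
    rw [h7, hε]; ring
  · intro heq
    obtain ⟨l, hl, hs⟩ := pm_eq_iff.mp heq
    have hb : ∀ i j, B.1 i j = l * Z.1 i j := fun i j => by rw [hs]; simp
    have hz : ∀ i j, Z.1 i j = l * B.1 i j := fun i j => by
      rw [hb]; linear_combination (-(Z.1 i j)) * hl
    have hB4 : B.1 1 1 = - B.1 0 0 := by linear_combination hB
    have hdB := det_entries B
    rw [hB4] at hdB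
    simp only [mul_entries, hz, hB4] at hAZ hZB
    simp only [mul_entries, hB4] at hc
    have hA4 : A.1 1 1 = - A.1 0 0 := by linear_combination hA
    rw [hA4] at hAZ hc
    -- ε r = l
    have h3 : 2 * (ε * r - l) = 0 := by linear_combination hZB + 2 * l * hdB
    have h4 : ε * r = l := by
      have := (mul_eq_zero.mp h3).resolve_left h2
      exact sub_eq_zero.mp this
    have h5 : 2 * (r - l * c) = 0 := by linear_combination hAZ - l * hc
    have h6 : r = l * c := by
      have := (mul_eq_zero.mp h5).resolve_left h2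
      exact sub_eq_zero.mp this
    rw [h6] at h4
    have hl0 : l ≠ 0 := by rintro rfl; simp at hl
    have h7 : ε * c = 1 := by
      have : l * (ε * c - 1) = 0 := by linear_combination h4
      exact sub_eq_zero.mp ((mul_eq_zero.mp this).resolve_left hl0)
    apply he
    have : c ^ 2 = 1 := by
      have : (ε * c) ^ 2 = 1 := by rw [h7]; ring
      rw [mul_pow, hε] at this
      simpa using this
    rw [this]; ring
  · rw [← map_mul]
    refine odd_order_odd h2 (A * Z) (w := v) ?_ hvv
    rw [hAZ]; linear_combination -4 * hv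
  · rw [← map_mul]
    refine odd_order_odd h2 (Z * B) (w := v) ?_ hvv
    rw [hZB]; linear_combination -4 * hv + 4 * r ^ 2 * hε

/-- the main dichotomy in odd characteristic -/
theorem common_odd [Fintype F] (h2 : (2 : F) ≠ 0) (hcard : 4 ≤ Fintype.card F) (A B : SL2 F)
    (hA : A.1 0 0 + A.1 1 1 = 0) (hB : B.1 0 0 + B.1 1 1 = 0) :
    Odd (orderOf (pm F A * pm F B)) ∨
    ∃ Z : SL2 F, Z.1 0 0 + Z.1 1 1 = 0 ∧ pm F Z ≠ 1 ∧ pm F A ≠ pm F Z ∧ pm F Z ≠ pm F B ∧
      Odd (orderOf (pm F A * pm F Z)) ∧ Odd (orderOf (pm F Z * pm F B)) := by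
  classical
  set c := -((A * B).1 0 0 + (A * B).1 1 1) / 2 with hcdef
  have hc : (A * B).1 0 0 + (A * B).1 1 1 = -2 * c := by
    rw [hcdef]; field_simp
  by_cases hc1 : c ^ 2 = 1
  · left
    rw [← map_mul]
    refine odd_order_odd h2 (A * B) (w := 0) ?_ (Or.inl rfl)
    rw [hc]; linear_combination 4 * hc1
  have he : 1 - c ^ 2 ≠ 0 := fun h => hc1 (by linear_combination -h)
  by_cases hneg : IsSquare (-1 : F)
  · right
    obtain ⟨i, hi⟩ := hneg
    exact common_of_rsw h2 A B hA hB hc he (r := 1) (ε := 1) (v := 0) (w := i * (c - 1)) (by ring)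
      (by ring) (Or.inl rfl) (by
        have : i ^ 2 = -1 := by rw [pow_two]; exact hi.symm
        rw [mul_pow, this]; ring)
  · by_cases hsq : IsSquare (1 - c ^ 2)
    · right
      obtain ⟨e, he'⟩ := hsq
      have he2 : e ^ 2 = 1 - c ^ 2 := by rw [pow_two]; exact he'.symm
      have he0 : e ≠ 0 := by
        rintro rfl
        apply he; rw [← he2]; ring
      obtain ⟨r, ε, w, v, hε, hv, hw⟩ := exists_rsw h2 hneg hcard he2 he0
      exact common_of_rsw h2 A B hA hB hc he hε hv (Or.inr hneg) hw
    · left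
      have h1 : quadraticChar F (-1) = -1 := quadraticChar_neg_one_iff_not_isSquare.mpr hneg
      have h3 : quadraticChar F (1 - c ^ 2) = -1 := quadraticChar_neg_one_iff_not_isSquare.mpr hsq
      have hne : c ^ 2 - 1 ≠ 0 := fun h => hc1 (by linear_combination h)
      have h4 : quadraticChar F (c ^ 2 - 1) = 1 := by
        have : c ^ 2 - 1 = (-1) * (1 - c ^ 2) := by ring
        rw [this, map_mul, h1, h3]; norm_num
      obtain ⟨w, hw⟩ := (quadraticChar_one_iff_isSquare hne).mp h4
      rw [← map_mul]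
      refine odd_order_odd h2 (A * B) (w := w) ?_ (Or.inr hneg)
      rw [hc]
      have : w ^ 2 = c ^ 2 - 1 := by rw [pow_two]; exact hw.symm
      rw [this]; ring

/-- The standard involution. -/
def J (F : Type*) [Field F] : SL2 F := ofEnt 0 (-1) 1 0 (by ring)

theorem conj_J [Fintype F] (h2 : (2 : F) ≠ 0) (A : SL2 F) (hA : A.1 0 0 + A.1 1 1 = 0) :
    ∃ C : SL2 F, A * C = C * J F := by
  set a := A.1 0 0 with ha
  set b := A.1 0 1 with hb
  set c := A.1 1 0 with hc
  have hd : A.1 1 1 = -a := by linear_combination hA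
  have hdet := det_entries A
  rw [hd] at hdet
  have haa : a ^ 2 + b * c = -1 := by linear_combination -hdet
  have hchar : ringChar F ≠ 2 := fun h => h2 (by
    have := ringChar.Nat.cast_ringChar (R := F)
    rw [h] at this
    exact_mod_cast this)
  have hodd : Fintype.card F % 2 = 1 := FiniteField.odd_card_of_char_ne_two hchar
  -- solve the quadratic form
  obtain ⟨v1, v2, hQ⟩ : ∃ v1 v2 : F, c * v1 ^ 2 - 2 * a * v1 * v2 - b * v2 ^ 2 = 1 := by
    by_cases hc0 : c = 0
    · have hc00 : a ^ 2 = -1 := by rw [hc0] at haa; linear_combination haa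
      have ha0 : a ≠ 0 := by
        intro h
        rw [h] at hc00
        have h3 : (1 : F) = 0 := by linear_combination hc00
        exact one_ne_zero h3
      refine ⟨-(1 + b) / (2 * a), 1, ?_⟩
      rw [hc0]
      field_simp
      ring
    · obtain ⟨x, y, hxy⟩ : ∃ x y : F, x ^ 2 + y ^ 2 = c := by
        have hf : (Polynomial.X ^ 2 + Polynomial.C (-c) : Polynomial F).degree = 2 := by
          compute_degree!
        have hg : (Polynomial.X ^ 2 : Polynomial F).degree = 2 := by simp
        obtain ⟨x, y, hyw⟩ := FiniteField.exists_root_sum_quadratic hf hg hodd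
        refine ⟨x, y, ?_⟩
        simp only [Polynomial.eval_add, Polynomial.eval_pow, Polynomial.eval_X, Polynomial.eval_C]
          at hyw
        linear_combination hyw
      refine ⟨x / c + a / c * y, y, ?_⟩
      have : c * (x / c + a / c * y) ^ 2 - 2 * a * (x / c + a / c * y) * y - b * y ^ 2
          = (x ^ 2 - (a ^ 2 + b * c) * y ^ 2) / c := by
        field_simp
        ring
      rw [this, haa]
      field_simp
      linear_combination hxy
  refine ⟨ofEnt v1 (a * v1 + b * v2) v2 (c * v1 - a * v2) (by linear_combination hQ), ?_⟩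
  apply sl_ext
  all_goals simp only [mul_entries, ofEnt_00, ofEnt_01, ofEnt_10, ofEnt_11, J, hd, ← ha, ← hb, ← hc]
  · ring
  · linear_combination v1 * haa
  · ring
  · linear_combination v2 * haa

theorem pm_conj_of_intertwine {A C E : SL2 F} (h : A * C = C * E) :
    IsConj (pm F E) (pm F A) := by
  rw [isConj_iff]
  refine ⟨pm F C, ?_⟩
  have : pm F A * pm F C = pm F C * pm F E := by
    rw [← map_mul, ← map_mul, h]
  rw [← this]; group

/-- two trace zero elements are conjugate in odd characteristic -/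
theorem isConj_odd [Fintype F] (h2 : (2 : F) ≠ 0) (A B : SL2 F)
    (hA : A.1 0 0 + A.1 1 1 = 0) (hB : B.1 0 0 + B.1 1 1 = 0) : IsConj (pm F A) (pm F B) := by
  obtain ⟨C, hC⟩ := conj_J h2 A hA
  obtain ⟨D, hD⟩ := conj_J h2 B hB
  exact (pm_conj_of_intertwine hC).symm.trans (pm_conj_of_intertwine hD)

/-- a non-adjacent pair in odd characteristic -/
theorem nonadj_odd [Fintype F] (h2 : (2 : F) ≠ 0) :
    ∃ A B : SL2 F, A.1 0 0 + A.1 1 1 = 0 ∧ B.1 0 0 + B.1 1 1 = 0 ∧ pm F A ≠ pm F B ∧
      orderOf (pm F A * pm F B) = 2 ∧ orderOf (pm F B * pm F A) = 2 := by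
  have hchar : ringChar F ≠ 2 := fun h => h2 (by
    have := ringChar.Nat.cast_ringChar (R := F)
    rw [h] at this
    exact_mod_cast this)
  have hodd : Fintype.card F % 2 = 1 := FiniteField.odd_card_of_char_ne_two hchar
  obtain ⟨x, y, hxy⟩ : ∃ x y : F, x ^ 2 + y ^ 2 = -1 := by
    have hf : (Polynomial.X ^ 2 + Polynomial.C (1 : F) : Polynomial F).degree = 2 := by
      compute_degree!
    have hg : (Polynomial.X ^ 2 : Polynomial F).degree = 2 := by simp
    obtain ⟨x, y, hyw⟩ := FiniteField.exists_root_sum_quadratic hf hg hodd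
    refine ⟨x, y, ?_⟩
    simp only [Polynomial.eval_add, Polynomial.eval_pow, Polynomial.eval_X, Polynomial.eval_C]
      at hyw
    linear_combination hyw
  let B : SL2 F := ofEnt x y y (-x) (by linear_combination -hxy)
  have hnonscalar : ∀ M : SL2 F, M.1 0 1 = x → M.1 1 0 = x → M.1 0 0 = - M.1 1 1 →
      M.1 1 1 = y ∨ M.1 1 1 = -y → pm F M ≠ 1 := by
    intro M h01 h10 h00 h11 h1
    obtain ⟨l, hl, hs⟩ := pm_eq_one_iff.mp h1
    have e01 : M.1 0 1 = 0 := by rw [hs]; simp [Matrix.scalar_apply]
    have e00 : M.1 0 0 = l := by rw [hs]; simp [Matrix.scalar_apply]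
    have e11 : M.1 1 1 = l := by rw [hs]; simp [Matrix.scalar_apply]
    have hx0 : x = 0 := by rw [← h01, e01]
    have hl0 : 2 * l = 0 := by
      rw [e00, e11] at h00; linear_combination h00
    have hl00 : l = 0 := (mul_eq_zero.mp hl0).resolve_left h2
    have hy0 : y = 0 := by
      rcases h11 with h | h
      · rw [e11, hl00] at h; exact h.symm
      · rw [e11, hl00] at h; linear_combination h
    rw [hx0, hy0] at hxy
    have h3 : (1 : F) = 0 := by linear_combination hxy
    exact one_ne_zero h3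
  have hJB : orderOf (pm F (J F * B)) = 2 := by
    refine order_two_of_trace_zero ?_ ?_
    · simp [mul_entries, J, B]
    · refine hnonscalar _ ?_ ?_ ?_ ?_ <;> simp [mul_entries, J, B]
  have hBJ : orderOf (pm F (B * J F)) = 2 := by
    refine order_two_of_trace_zero ?_ ?_
    · simp [mul_entries, J, B]
    · intro h1
      obtain ⟨l, hl, hs⟩ := pm_eq_one_iff.mp h1
      have e01 : (B * J F).1 0 1 = 0 := by rw [hs]; simp [Matrix.scalar_apply]
      have e00 : (B * J F).1 0 0 = l := by rw [hs]; simp [Matrix.scalar_apply]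
      have e11 : (B * J F).1 1 1 = l := by rw [hs]; simp [Matrix.scalar_apply]
      have f01 : (B * J F).1 0 1 = -x := by simp [mul_entries, J, B]
      have f00 : (B * J F).1 0 0 = y := by simp [mul_entries, J, B]
      have f11 : (B * J F).1 1 1 = -y := by simp [mul_entries, J, B]
      rw [e01] at f01
      rw [e00] at f00
      rw [e11] at f11
      have hl0 : 2 * l = 0 := by linear_combination f11 + f00
      have hl00 : l = 0 := (mul_eq_zero.mp hl0).resolve_left h2
      have hx0 : x = 0 := by linear_combination f01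
      have hy0 : y = 0 := by rw [← f00, hl00]
      rw [hx0, hy0] at hxy
      have h3 : (1 : F) = 0 := by linear_combination hxy
      exact one_ne_zero h3
  refine ⟨J F, B, by simp [J], by simp [B], ?_, by rwa [← map_mul], by rwa [← map_mul]⟩
  intro heq
  have : orderOf (pm F (J F * B)) = 1 := by
    rw [map_mul, ← heq, ← pow_two, ← map_pow, orderOf_eq_one_iff]
    refine pm_eq_one_iff.mpr ⟨-1, by ring, ?_⟩
    have : (J F) ^ 2 = J F * J F := pow_two _
    rw [this]
    ext i j
    rw [mul_entries]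
    fin_cases i <;> fin_cases j <;> simp [J, Matrix.scalar_apply]
  rw [hJB] at this
  omega

end Cfsg.Agent.H16.PG
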